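import Cfsg.Agent.FT.BG1
import Cfsg.Agent.FT.Rank
import Cfsg.Agent.FT.Img
import Cfsg.Agent.FT.Prod
import Cfsg.Agent.S0071

/-!
Groups with a Sylow `2`-subgroup of class at most two, part A: a maximal `2`-subgroup whose
automizer is not a `2`-group.
-/

set_option autoImplicit false

open Pointwise Cfsg Cfsg.Lib.Solv Cfsg.Lib.FT

namespace Cfsg.Lib.Cor.C2

variable {G : Type*} [Group G] {K S E F U : Subgroup G} {x y t s : G} {p : ℕ}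

theorem exists_mul_pow_eq {u : G} (hu : u ∈ U) (hy : y ∈ 𝐍 U) (n : ℕ) :
    ∃ u' ∈ U, (u * y) ^ n = u' * y ^ n := by
  induction n with
  | zero => exact ⟨1, U.one_mem, by simp⟩
  | succ n ih =>
    obtain ⟨u', hu', e⟩ := ih
    refine ⟨u * (y * u' * y⁻¹), U.mul_mem hu ((memJ_norm hy).2 hu'), ?_⟩
    rw [pow_succ', e, pow_succ']
    group

theorem mem_of_pow_mem (hx : (orderOf x).Coprime p) {k : ℕ} (h : x ^ p ^ k ∈ U) : x ∈ U := by
  have : x ∈ Subgroup.zpowers (x ^ p ^ k) :=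
    mem_zpowers_pow_iff.2 (Nat.Coprime.pow_left k hx.symm)
  exact Subgroup.zpowers_le.2 h this

/-- `x = u * y` with `y` normalizing `U` and a `p`-power of `y` in `U`. -/
theorem pow_mem_of_mul {u : G} (hu : u ∈ U) (hy : y ∈ 𝐍 U) {n : ℕ} (h : y ^ n ∈ U) :
    (u * y) ^ n ∈ U := by
  obtain ⟨u', hu', e⟩ := exists_mul_pow_eq hu hy n
  rw [e]
  exact mul_mem hu' h

theorem exists_pow_eq_one (hS : IsPGroup p S) (hx : x ∈ S) : ∃ k : ℕ, x ^ p ^ k = 1 := by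
  obtain ⟨k, hk⟩ := hS ⟨x, hx⟩
  exact ⟨k, congrArg Subtype.val hk⟩

/-- the automizer in `K` of `F` is a `p`-group -/
def Good (p : ℕ) (K F : Subgroup G) : Prop := ∀ x ∈ K ⊓ 𝐍 F, ∃ k : ℕ, x ^ p ^ k ∈ 𝐂 F

variable [Finite G]

theorem exists_coprime_pow (hp : p.Prime) (x : G) :
    ∃ k : ℕ, (orderOf (x ^ p ^ k)).Coprime p := by
  obtain ⟨k, m, hm, e⟩ := Nat.exists_eq_pow_mul_and_not_dvd (orderOf_pos x).ne' p hp.ne_one
  refine ⟨k, ?_⟩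
  have : orderOf (x ^ p ^ k) ∣ m := by
    rw [orderOf_dvd_iff_pow_eq_one, ← pow_mul, ← e, pow_orderOf_eq_one]
  exact (((Nat.Prime.coprime_iff_not_dvd hp).2 hm).symm).coprime_dvd_left this

theorem exists_not_good [Fact p.Prime] (h : ¬ HasNormalPComplement p K) :
    ∃ E, E ≤ K ∧ IsPGroup p E ∧ ¬ Good p K E := by
  by_contra hc
  push Not at hc
  obtain ⟨P⟩ : Nonempty (Sylow p K) := inferInstance
  obtain ⟨N, h1, h2⟩ := (Cfsg.Agent.S0071.result P).2 fun Q hQ g hg ho => by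
    have hn : (g : G) ∈ 𝐍 (Q.map K.subtype) := norms_map (A := Subgroup.zpowers g)
      (Subgroup.zpowers_le.2 hg) K.subtype ⟨g, Subgroup.mem_zpowers g, rfl⟩
    obtain ⟨k, hk⟩ := hc _ (Subgroup.map_subtype_le Q) ((P.isPGroup'.to_le hQ).map _) g
      ⟨g.2, hn⟩
    have := mem_of_pow_mem (by rwa [Subgroup.orderOf_coe]) hk
    rw [mem_cent] at this ⊢
    exact fun q hq => Subtype.ext (this q ⟨q, hq, rfl⟩)
  exact h ⟨P, N, h1, h2⟩

omit [Finite G] in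
theorem Good.conj (h : Good p K E) {g : G} (hg : g ∈ K) : Good p K (g •ᶜ E) := by
  intro x hx
  obtain ⟨hx1, hx2⟩ := Subgroup.mem_inf.1 hx
  rw [normJ, mem_conj_smul] at hx2
  obtain ⟨k, hk⟩ := h (g⁻¹ * x * g)
    (Subgroup.mem_inf.2 ⟨K.mul_mem (K.mul_mem (K.inv_mem hg) hx1) hg, hx2⟩)
  refine ⟨k, ?_⟩
  rw [centJ, mem_conj_smul]
  have e : g⁻¹ * x ^ p ^ k * g = (g⁻¹ * x * g) ^ p ^ k := by
    have := conj_pow (a := g⁻¹) (b := x) (i := p ^ k)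
    rw [inv_inv] at this
    exact this.symm
  rwa [e]

theorem cent_le_of_good [hp : Fact p.Prime] (hS : IsSylowOf p S K) (hES : E ≤ S)
    (hbad : ¬ Good p K E) (hgood : ∀ F, E < F → F ≤ S → Good p K F)
    (hsyl : IsSylowOf p (S ⊓ 𝐍 E) (K ⊓ 𝐍 E)) : S ⊓ 𝐂 E ≤ E := by
  by_contra hc
  have hF : Good p K (E ⊔ (S ⊓ 𝐂 E)) := hgood _ (left_lt_sup.2 hc) (sup_le hES inf_le_left)
  have hn := subcent_normal K E
  have hT' := setI_normal_Hall hn hsyl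
  have e1 : S ⊓ 𝐍 E ⊓ (K ⊓ 𝐂 E) = S ⊓ 𝐂 E :=
    le_antisymm (inf_le_inf inf_le_left inf_le_right) (le_inf
      (inf_le_inf_left _ (cent_sub E)) (inf_le_inf_right _ (pHall_sub hS)))
  rw [e1] at hT'
  have hfr := Frattini_arg hn hT'
  apply hbad
  intro x hx
  rw [← hfr, mem_sup_of_le_normalizer (inf_le_left.trans hn.norm)] at hx
  obtain ⟨c, hc, n, hn', rfl⟩ := hx
  obtain ⟨hn1, hn2⟩ := Subgroup.mem_inf.1 hn'
  obtain ⟨hn0, hn1⟩ := Subgroup.mem_inf.1 hn1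
  have h5 : n ∈ 𝐍 (E ⊔ (S ⊓ 𝐂 E)) :=
    normsY (A := 𝐍 E ⊓ 𝐍 (S ⊓ 𝐂 E)) inf_le_left inf_le_right (Subgroup.mem_inf.2 ⟨hn1, hn2⟩)
  obtain ⟨k, hk⟩ := hF n (Subgroup.mem_inf.2 ⟨hn0, h5⟩)
  exact ⟨k, pow_mem_of_mul (Subgroup.mem_inf.1 hc).2 (norms_cent le_rfl hn1)
    (centS le_sup_left hk)⟩

/-- A maximal `p`-subgroup whose automizer is not a `p`-group: it can be chosen in a given Sylow
subgroup `S`, fully normalized and self-centralizing in `S`. -/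
theorem exists_max_not_good [hp : Fact p.Prime] (hS : IsSylowOf p S K)
    (h : ¬ HasNormalPComplement p K) :
    ∃ E, E ≤ S ∧ ¬ Good p K E ∧ (∀ F, E < F → F ≤ S → Good p K F) ∧ S ⊓ 𝐂 E ≤ E ∧
      IsSylowOf p (S ⊓ 𝐍 E) (K ⊓ 𝐍 E) := by
  obtain ⟨E₀, h0, hmax⟩ := Set.exists_max_image
    {E : Subgroup G | E ≤ K ∧ IsPGroup p E ∧ ¬ Good p K E} (fun E : Subgroup G => Nat.card E)
    (Set.toFinite _) (exists_not_good h)
  obtain ⟨h01, h02, h03⟩ := h0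
  obtain ⟨T, hT, hET⟩ := Sylow_superset (p := p) (le_inf h01 (normG E₀)) h02
  obtain ⟨g, hg, hgT⟩ := Sylow_Jsub hS ((pHall_sub hT).trans inf_le_left) (Sylow_pgroup hT)
  have hES : g •ᶜ E₀ ≤ S := (conj_smul_mono g hET).trans hgT
  have hbad : ¬ Good p K (g •ᶜ E₀) := fun hc => h03 (by
    have := hc.conj (K.inv_mem hg)
    rwa [conj_inv_smul_conj_smul] at this)
  have hsyl : IsSylowOf p (S ⊓ 𝐍 (g •ᶜ E₀)) (K ⊓ 𝐍 (g •ᶜ E₀)) := by
    have h1 := (pHallJ2 g).2 hT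
    rw [conjIg, conjGid hg, ← normJ] at h1
    refine pHall_of_card_le h1 (inf_le_inf_right _ (pHall_sub hS))
      (pgroupS inf_le_left (pHall_pgroup hS)) (Subgroup.card_le_of_le ?_)
    exact le_inf hgT ((pHall_sub h1).trans inf_le_right)
  have hgood : ∀ F, g •ᶜ E₀ < F → F ≤ S → Good p K F := fun F h1 h2 => by
    by_contra hc
    have : Nat.card F ≤ Nat.card E₀ :=
      hmax F ⟨h2.trans (pHall_sub hS), isPGroupS h2 (Sylow_pgroup hS), hc⟩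
    have h3 := proper_card h1
    rw [card_conj_smul] at h3
    exact absurd this (not_le.2 h3)
  exact ⟨g •ᶜ E₀, hES, hbad, hgood, cent_le_of_good hS hES hbad hgood hsyl, hsyl⟩

/-- An involution acting without fixed points inverts. -/
theorem inv_of_fpf {O : Subgroup G} (ht : t ∈ 𝐍 O) (h2 : t * t = 1)
    (h : ∀ y ∈ O, t * y * t⁻¹ = y → y = 1) : ∀ y ∈ O, t * y * t⁻¹ = y⁻¹ := by
  let f : O → O := fun y => ⟨y⁻¹ * (t * y * t⁻¹), mul_mem (inv_mem y.2) ((memJ_norm ht).2 y.2)⟩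
  have hf : Function.Injective f := by
    intro a b hab
    have h1 : (a : G)⁻¹ * (t * a * t⁻¹) = (b : G)⁻¹ * (t * b * t⁻¹) := congrArg Subtype.val hab
    have h3 := h ((b : G) * (a : G)⁻¹) (mul_mem b.2 (inv_mem a.2)) (by
      calc t * ((b : G) * (a : G)⁻¹) * t⁻¹
          = b * ((b : G)⁻¹ * (t * b * t⁻¹)) * (t * (a : G)⁻¹ * t⁻¹) := by group
        _ = (b : G) * (a : G)⁻¹ := by rw [← h1]; group)
    exact Subtype.ext (mul_inv_eq_one.1 h3).symm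
  intro y hy
  obtain ⟨u, hu⟩ := Finite.surjective_of_injective hf ⟨y, hy⟩
  have h1 : (u : G)⁻¹ * (t * u * t⁻¹) = y := congrArg Subtype.val hu
  have h3 : t⁻¹ = t := inv_eq_of_mul_eq_one_right h2
  rw [← h1]
  calc t * ((u : G)⁻¹ * (t * u * t⁻¹)) * t⁻¹ = t * (u : G)⁻¹ * t * u * (t⁻¹ * t⁻¹) := by group
    _ = t * (u : G)⁻¹ * t⁻¹ * u := by rw [h3, h2, mul_one]
    _ = _ := by group

/-- The data attached to a maximal `2`-subgroup with non-nilpotent automizer, in class two. -/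
structure Setup (K S E : Subgroup G) : Prop where
  syl : IsSylowOf 2 S K
  cl : ⁅S, S⁆ ≤ 𝐂 S
  le : E ≤ S
  bad : ¬ Good 2 K E
  good : ∀ F, E < F → F ≤ S → Good 2 K F
  cent : S ⊓ 𝐂 E ≤ E

namespace Setup

variable (h : Setup K S E)
include h

omit [Finite G] in
theorem der_le : ⁅S, S⁆ ≤ E :=
  (le_inf (der_sub S) (h.cl.trans (centS h.le))).trans h.cent

omit [Finite G] in
theorem norm_of_le (h1 : E ≤ F) (h2 : F ≤ S) : S ≤ 𝐍 F := sub_der1_norm (h.der_le.trans h1) h2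

omit [Finite G] in
theorem S_le : S ≤ K ⊓ 𝐍 E := le_inf (pHall_sub h.syl) (h.norm_of_le le_rfl h.le)

omit [Finite G] in
theorem sylL : IsSylowOf 2 S (K ⊓ 𝐍 E) := pHall_subl h.S_le inf_le_left h.syl

omit [Finite G] in
theorem R_normal : E ⊔ (K ⊓ 𝐂 E) ⊲ K ⊓ 𝐍 E :=
  normalY (normalSG (h.le.trans (pHall_sub h.syl))) (subcent_normal K E)

omit [Finite G] in
theorem inf_sup (h1 : E ≤ F) (h2 : F ≤ S) : S ⊓ (F ⊔ (K ⊓ 𝐂 E)) = F := by
  refine le_antisymm ?_ (le_inf h2 le_sup_left)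
  intro x hx
  obtain ⟨hx, hx'⟩ := Subgroup.mem_inf.1 hx
  rw [mem_sup_of_le_normalizer'
    ((h2.trans h.S_le).trans (subcent_normal K E).norm)] at hx'
  obtain ⟨a, ha, c, hc, rfl⟩ := hx'
  exact mul_mem ha (h1 (h.cent ⟨(mul_mem_cancel_left (h2 ha)).1 hx, hc.2⟩))

theorem pow_mem (h1 : E < F) (h2 : F ≤ S) (hx : x ∈ K ⊓ 𝐍 E) (hn : x ∈ 𝐍 (F ⊔ (K ⊓ 𝐂 E))) :
    ∃ k : ℕ, x ^ 2 ^ k ∈ E ⊔ (K ⊓ 𝐂 E) := by
  have hC := subcent_normal K E
  have hB : F ⊔ (K ⊓ 𝐂 E) ≤ K ⊓ 𝐍 E := sup_le (h2.trans h.S_le) hC.le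
  have hs := setI_norm_Hall h.sylL hB (normsY (h.norm_of_le h1.le h2) (h.S_le.trans hC.norm))
  rw [h.inf_sup h1.le h2] at hs
  have hn' := normalSG hB
  have hfr := Frattini_arg hn' hs
  have hx' : x ∈ K ⊓ 𝐍 E ⊓ 𝐍 (F ⊔ (K ⊓ 𝐂 E)) := ⟨hx, hn⟩
  rw [← hfr, mem_sup_of_le_normalizer (inf_le_left.trans hn'.norm)] at hx'
  obtain ⟨b, hb, n, hn'', rfl⟩ := hx'
  obtain ⟨k, hk⟩ := h.good F h1 h2 n ⟨hn''.1.1.1, hn''.2⟩
  have h3 : (b * n) ^ 2 ^ k ∈ F ⊔ (K ⊓ 𝐂 E) := pow_mem_of_mul hb hn''.1.2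
    (Subgroup.mem_sup_right ⟨Subgroup.pow_mem _ hn''.1.1.1 _, centS h1.le hk⟩)
  rw [sup_comm, mem_sup_of_le_normalizer ((h2.trans h.S_le).trans hC.norm)] at h3
  obtain ⟨c, hc, a, ha, e⟩ := h3
  obtain ⟨m, hm⟩ := exists_pow_eq_one (Sylow_pgroup h.syl) (h2 ha)
  refine ⟨k + m, ?_⟩
  rw [pow_add, pow_mul, ← e]
  exact Subgroup.mem_sup_right (pow_mem_of_mul hc (hC.norm (h.S_le (h2 ha))) (hm ▸ one_mem _))

theorem mem_of_comm (hs : s ∈ S) (hsE : s ∉ E) (hx : x ∈ K ⊓ 𝐍 E) (ho : (orderOf x).Coprime 2)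
    (hc : x * s * x⁻¹ * s⁻¹ ∈ E ⊔ (K ⊓ 𝐂 E)) : x ∈ E ⊔ (K ⊓ 𝐂 E) := by
  have h1 : E < E ⊔ Subgroup.zpowers s := lt_of_le_of_ne le_sup_left fun e =>
    hsE (e ▸ Subgroup.mem_sup_right (Subgroup.mem_zpowers s))
  have h2 : E ⊔ Subgroup.zpowers s ≤ S := sup_le h.le (Subgroup.zpowers_le.2 hs)
  obtain ⟨k, hk⟩ := h.pow_mem h1 h2 hx (by
    apply mem_normalizer_of_conj_mem
    rw [← conj_smul_le_iff, sup_right_comm, conjYg, normP.1 (h.R_normal.norm hx),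
      conj_smul_zpowers]
    refine sup_le le_sup_left (Subgroup.zpowers_le.2 ?_)
    have : x * s * x⁻¹ = x * s * x⁻¹ * s⁻¹ * s := by group
    rw [this]
    exact mul_mem (Subgroup.mem_sup_left hc) (Subgroup.mem_sup_right (Subgroup.mem_zpowers s)))
  exact mem_of_pow_mem ho hk

theorem cent_of_mem (hx : x ∈ E ⊔ (K ⊓ 𝐂 E)) (ho : (orderOf x).Coprime 2) : x ∈ 𝐂 E := by
  rw [sup_comm, mem_sup_of_le_normalizer
    ((h.le.trans h.S_le).trans (subcent_normal K E).norm)] at hx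
  obtain ⟨c, hc, a, ha, rfl⟩ := hx
  obtain ⟨m, hm⟩ := exists_pow_eq_one (Sylow_pgroup h.syl) (h.le ha)
  exact mem_of_pow_mem ho (pow_mem_of_mul hc.2 (norms_cent le_rfl (normG E ha))
    (hm ▸ one_mem _))

theorem exists_odd : ∃ x ∈ K ⊓ 𝐍 E, (orderOf x).Coprime 2 ∧ x ∉ 𝐂 E := by
  have := h.bad
  simp only [Good, not_forall, not_exists] at this
  obtain ⟨x, hx, h1⟩ := this
  obtain ⟨k, hk⟩ := exists_coprime_pow Nat.prime_two x
  exact ⟨_, Subgroup.pow_mem _ hx _, hk, h1 k⟩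

/-- An involution of `S` outside `E` inverts the elements of odd order of `N_K(E)` modulo
`E C_K(E)`, and these commute modulo `E C_K(E)`. -/
theorem inverts (ht : t ∈ S) (htE : t ∉ E) (h2 : t * t = 1) :
    (∀ x ∈ K ⊓ 𝐍 E, (orderOf x).Coprime 2 → t * x * t⁻¹ * x ∈ E ⊔ (K ⊓ 𝐂 E)) ∧
    ∀ x ∈ K ⊓ 𝐍 E, (orderOf x).Coprime 2 → ∀ y ∈ K ⊓ 𝐍 E, (orderOf y).Coprime 2 →
      x * y * x⁻¹ * y⁻¹ ∈ E ⊔ (K ⊓ 𝐂 E) := by
  have hR := h.R_normal
  have := hR.subgroupOf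
  set L := K ⊓ 𝐍 E with hL
  set R := E ⊔ (K ⊓ 𝐂 E) with hRd
  have hES : E < S := lt_of_le_of_ne h.le fun e => htE (e ▸ ht)
  have hT : IsSylowOf 2 (img (qmk L R) S) ⊤ := img_qmk_self L R ▸ pHall_img _ le_rfl h.sylL
  have hab : IsMulCommutative (img (qmk L R) S) :=
    (img_qmk_abelian_iff h.S_le).2 (h.der_le.trans le_sup_left)
  have hB := Burnside_normal_complement Nat.prime_two hT (by
    rintro q ⟨-, hq⟩
    obtain ⟨x, rfl⟩ := qmk_surjective L R q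
    have h1 : (x : G) ∈ 𝐍 (pre (qmk L R) (img (qmk L R) S)) :=
      pre_norms (X := Subgroup.zpowers (qmk L R x)) _ (Subgroup.zpowers_le.2 hq)
        (coe_mem_pre.2 (Subgroup.mem_zpowers _))
    rw [pre_img h.S_le, ker_qmk hR.le, hRd, ← sup_assoc, sup_eq_left.2 h.le] at h1
    obtain ⟨k, hk⟩ := h.pow_mem hES le_rfl x.2 h1
    have h3 : qmk L R x ^ 2 ^ k = 1 := by
      rw [← map_pow, qmk_eq_one]
      exact hk
    have h4 : Subgroup.zpowers (qmk L R x) ≤ img (qmk L R) S :=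
      norm_sub_Hall' hT (pgroup_zpowers.2 fun r hr hd => (Nat.prime_dvd_prime_iff_eq hr
        Nat.prime_two).1 (hr.dvd_of_dvd_pow (hd.trans (orderOf_dvd_of_pow_eq_one h3)))) le_top
        (Subgroup.zpowers_le.2 hq)
    exact abelian_le_cent hab (h4 (Subgroup.mem_zpowers _)))
  set O := piCoreOf ({2}ᶜ : Set ℕ) (⊤ : Subgroup (L ⧸ R.subgroupOf L)) with hO
  have hOH : IsPiHallOf ({2}ᶜ : Set ℕ) O ⊤ := pHall_of le_top (pcore_pgroup _ _) (by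
    rw [hB.relIndex_left, compl_compl]
    exact pHall_pgroup hT)
  have hmem : ∀ x : L, (orderOf (x : G)).Coprime 2 → qmk L R x ∈ O := fun x hx =>
    (mem_normal_Hall hOH (pcore_normal _ _).norm trivial).2 (p_elt_img x.2
      ((p'natE Nat.prime_two).2 ((Nat.Prime.coprime_iff_not_dvd Nat.prime_two).1 hx.symm)))
  have hinv := inv_of_fpf (O := O) (t := qmk L R ⟨t, h.S_le ht⟩)
    ((pcore_normal _ _).norm trivial) (by
      rw [← map_mul, qmk_eq_one]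
      show t * t ∈ R
      rw [h2]
      exact one_mem _) (by
      intro y hy hc
      obtain ⟨u, rfl⟩ := qmk_surjective L R y
      obtain ⟨k, hk⟩ := exists_coprime_pow Nat.prime_two (u : G)
      have h3 : (u : G) ^ 2 ^ k ∈ R := h.mem_of_comm ht htE (Subgroup.pow_mem _ u.2 _) hk (by
        have : qmk L R (u ^ 2 ^ k * ⟨t, h.S_le ht⟩ * (u ^ 2 ^ k)⁻¹ * ⟨t, h.S_le ht⟩⁻¹) = 1 := by
          have h4 : Commute (qmk L R u) (qmk L R ⟨t, h.S_le ht⟩) :=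
            (mul_inv_eq_iff_eq_mul.1 hc).symm
          rw [map_mul, map_mul, map_mul, map_inv, map_inv, map_pow, (h4.pow_left _).eq]
          group
        exact qmk_eq_one.1 this)
      have h5 : qmk L R u ^ 2 ^ k ∈ (⊥ : Subgroup (L ⧸ R.subgroupOf L)) := by
        rw [Subgroup.mem_bot, ← map_pow, qmk_eq_one]
        exact h3
      have h6 := (p'natE Nat.prime_two).1 (mem_p_elt (pcore_pgroup _ _) hy)
      exact Subgroup.mem_bot.1 (mem_of_pow_mem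
        ((Nat.Prime.coprime_iff_not_dvd Nat.prime_two).2 h6).symm h5))
  constructor
  · intro x hx ho
    have : qmk L R (⟨t, h.S_le ht⟩ * ⟨x, hx⟩ * ⟨t, h.S_le ht⟩⁻¹ * ⟨x, hx⟩) = 1 := by
      rw [map_mul, map_mul, map_mul, map_inv, hinv _ (hmem ⟨x, hx⟩ ho), inv_mul_cancel]
    exact qmk_eq_one.1 this
  · intro x hx ho y hy ho'
    have a1 := hinv _ (hmem ⟨x, hx⟩ ho)
    have a2 := hinv _ (hmem ⟨y, hy⟩ ho')
    have a3 := hinv _ (mul_mem (hmem ⟨y, hy⟩ ho') (hmem ⟨x, hx⟩ ho))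
    have : qmk L R (⟨x, hx⟩ * ⟨y, hy⟩ * ⟨x, hx⟩⁻¹ * ⟨y, hy⟩⁻¹) = 1 := by
      rw [map_mul, map_mul, map_mul, map_inv, map_inv]
      generalize qmk L R ⟨x, hx⟩ = a at *
      generalize qmk L R ⟨y, hy⟩ = b at *
      generalize qmk L R ⟨t, h.S_le ht⟩ = c at *
      have : b⁻¹ * a⁻¹ = (b * a)⁻¹ := by
        rw [← a1, ← a2, ← a3]
        group
      rw [mul_assoc, ← mul_inv_rev, ← this]
      group
    exact qmk_eq_one.1 this

end Setup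

end Cfsg.Lib.Cor.C2
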