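import Cfsg.Agent.Cor.ClassTwoA

/-!
Groups with a Sylow `2`-subgroup of class at most two, part B: a normal complement theorem with
operators of odd order.
-/

set_option autoImplicit false

open Pointwise Cfsg Cfsg.Lib.Solv Cfsg.Lib.FT

namespace Cfsg.Lib.Cor.C2

variable {G : Type*} [Group G] {A K S E U V W : Subgroup G} {x y t s z : G}

/-- The central elements of order at most two. -/
def Om (E : Subgroup G) : Subgroup G where
  carrier := {v | v ∈ E ∧ (∀ e ∈ E, e * v = v * e) ∧ v * v = 1}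
  one_mem' := ⟨E.one_mem, by simp, by simp⟩
  mul_mem' := by
    rintro a b ⟨a1, a2, a3⟩ ⟨b1, b2, b3⟩
    refine ⟨E.mul_mem a1 b1, fun e he => ?_, ?_⟩
    · rw [← mul_assoc, a2 e he, mul_assoc, b2 e he, mul_assoc]
    · rw [mul_assoc, ← mul_assoc b, a2 b b1, mul_assoc, b3, mul_one, a3]
  inv_mem' := by
    rintro a ⟨a1, a2, a3⟩
    rw [inv_eq_of_mul_eq_one_right a3]
    exact ⟨a1, a2, a3⟩

theorem mem_Om {v : G} : v ∈ Om E ↔ v ∈ E ∧ (∀ e ∈ E, e * v = v * e) ∧ v * v = 1 := Iff.rfl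

theorem Om_le_self : Om E ≤ E := fun _ hv => hv.1

theorem conj_mem_Om {g v : G} (hg : g ∈ 𝐍 E) (hv : v ∈ Om E) : g * v * g⁻¹ ∈ Om E := by
  refine ⟨(memJ_norm hg).2 hv.1, fun e he => ?_, ?_⟩
  · have := hv.2.1 _ ((memJ_norm' hg).2 he)
    calc e * (g * v * g⁻¹) = g * (g⁻¹ * e * g * v) * g⁻¹ := by group
      _ = _ := by rw [this]; group
  · calc g * v * g⁻¹ * (g * v * g⁻¹) = g * (v * v) * g⁻¹ := by group
      _ = 1 := by rw [hv.2.2]; group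

theorem abelem_Om : IsElementaryAbelian 2 (Om E) :=
  ⟨⟨⟨fun a b => Subtype.ext (b.2.2.1 a a.2.1)⟩⟩, fun a ha => by rw [sq]; exact ha.2.2⟩

/-- The elements acting trivially on `E / W`. -/
def St (E W : Subgroup G) : Subgroup G where
  carrier := {g | g ∈ 𝐍 W ∧ ∀ e ∈ E, g * e * g⁻¹ * e⁻¹ ∈ W}
  one_mem' := ⟨Subgroup.one_mem _, fun e _ => by simp⟩
  mul_mem' := by
    rintro a b ⟨a1, a2⟩ ⟨b1, b2⟩
    refine ⟨Subgroup.mul_mem _ a1 b1, fun e he => ?_⟩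
    have : a * b * e * (a * b)⁻¹ * e⁻¹ = a * (b * e * b⁻¹ * e⁻¹) * a⁻¹ * (a * e * a⁻¹ * e⁻¹) := by
      group
    rw [this]
    exact W.mul_mem ((memJ_norm a1).2 (b2 e he)) (a2 e he)
  inv_mem' := by
    rintro a ⟨a1, a2⟩
    refine ⟨Subgroup.inv_mem _ a1, fun e he => ?_⟩
    have : a⁻¹ * e * a⁻¹⁻¹ * e⁻¹ = a⁻¹ * (a * e * a⁻¹ * e⁻¹)⁻¹ * a := by group
    rw [this]
    exact (memJ_norm' a1).2 (W.inv_mem (a2 e he))

theorem mem_St {g : G} : g ∈ St E W ↔ g ∈ 𝐍 W ∧ ∀ e ∈ E, g * e * g⁻¹ * e⁻¹ ∈ W := Iff.rfl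

theorem sq_mem_St (h1 : y ∈ St E V) (h2 : y ∈ St V W) (hV : ∀ v ∈ V, v * v = 1) :
    y ^ 2 ^ 1 ∈ St E W := by
  refine ⟨Subgroup.pow_mem _ h2.1 _, fun e he => ?_⟩
  have h3 := h1.2 e he
  have h4 := hV _ h3
  have : y ^ 2 ^ 1 * e * (y ^ 2 ^ 1)⁻¹ * e⁻¹ = y * (y * e * y⁻¹ * e⁻¹) * y⁻¹ *
      (y * e * y⁻¹ * e⁻¹)⁻¹ * (y * e * y⁻¹ * e⁻¹ * (y * e * y⁻¹ * e⁻¹)) := by
    rw [pow_one, sq]; group
  rw [this, h4, mul_one]
  exact h2.2 _ h3

theorem mem_St_bot {g : G} : g ∈ St E ⊥ ↔ ∀ e ∈ E, g * e = e * g := by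
  rw [mem_St]
  refine ⟨fun h e he => ?_, fun h => ⟨by rw [Subgroup.normalizer_eq_top]; trivial, fun e he => ?_⟩⟩
  · have := Subgroup.mem_bot.1 (h.2 e he)
    rw [mul_inv_eq_one, mul_inv_eq_iff_eq_mul] at this
    exact this
  · rw [h e he]
    simp

theorem conj_mem_St {g : G} (h1 : g ∈ 𝐍 E) (h2 : g ∈ 𝐍 W) (h : s ∈ St E W) :
    g * s * g⁻¹ ∈ St E W := by
  refine ⟨mul_mem (mul_mem h2 h.1) (inv_mem h2), fun e he => ?_⟩
  have : g * s * g⁻¹ * e * (g * s * g⁻¹)⁻¹ * e⁻¹ =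
      g * (s * (g⁻¹ * e * g) * s⁻¹ * (g⁻¹ * e * g)⁻¹) * g⁻¹ := by group
  rw [this]
  exact (memJ_norm h2).2 (h.2 _ ((memJ_norm' h1).2 he))

/-- The group generated by two commuting elements of order at most two. -/
def Four (a b : G) (ha : a * a = 1) (hb : b * b = 1) (hab : b * a = a * b) : Subgroup G where
  carrier := {v | v = 1 ∨ v = a ∨ v = b ∨ v = a * b}
  one_mem' := Or.inl rfl
  mul_mem' := by
    have h1 : ∀ c, a * (a * c) = c := fun c => by rw [← mul_assoc, ha, one_mul]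
    have h2 : ∀ c, b * (a * c) = a * (b * c) := fun c => by rw [← mul_assoc, hab, mul_assoc]
    rintro u v (e | e | e | e) (e' | e' | e' | e') <;>
      simp [e, e', mul_assoc, h1, h2, ha, hb, hab]
  inv_mem' := by
    have h1 : (a * b)⁻¹ = a * b := by
      rw [mul_inv_rev, inv_eq_of_mul_eq_one_right ha, inv_eq_of_mul_eq_one_right hb, hab]
    rintro u (e | e | e | e) <;>
      simp only [Set.mem_ofPred_eq, e, h1, inv_eq_of_mul_eq_one_right ha,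
        inv_eq_of_mul_eq_one_right hb, inv_one, true_or, or_true]

theorem mem_Four {a b v : G} {ha hb hab} :
    v ∈ Four a b ha hb hab ↔ v = 1 ∨ v = a ∨ v = b ∨ v = a * b := Iff.rfl

theorem Four_le {a b : G} {ha hb hab} (h1 : a ∈ U) (h2 : b ∈ U) : Four a b ha hb hab ≤ U := by
  rintro v (e | e | e | e) <;> rw [e]
  exacts [U.one_mem, h1, h2, U.mul_mem h1 h2]

theorem fix_of_sq (ho : (orderOf y).Coprime 2) (h : y * (y * z * y⁻¹) * y⁻¹ = z) :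
    y * z * y⁻¹ = z := by
  have : y ∈ 𝐂₁ z := mem_of_pow_mem (k := 1) ho (Subgroup.mem_centralizer_singleton_iff.2 (by
    calc y ^ 2 ^ 1 * z = y * (y * z * y⁻¹) * y⁻¹ * y ^ 2 ^ 1 := by rw [pow_one, sq]; group
      _ = _ := by rw [h]))
  rw [Subgroup.mem_centralizer_singleton_iff.1 this, mul_inv_cancel_right]

variable [Finite G]

theorem norm_Om : 𝐍 E ≤ 𝐍 (Om E) := fun _ hg =>
  mem_normalizer_of_conj_mem fun _ hv => conj_mem_Om hg hv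

theorem mem_St_of_le (hW : W ≤ V) (h : ∀ v ∈ V, y * v * y⁻¹ * v⁻¹ ∈ W) : y ∈ St V W :=
  ⟨mem_normalizer_of_conj_mem fun w hw => by
    simpa using W.mul_mem (h w (hW hw)) hw, h⟩

theorem mul_mem_of_card_le (hU : U ≤ V) (hc : Nat.card V ≤ 2 * Nat.card U) {a b : G} (ha : a ∈ V)
    (hb : b ∈ V) (ha' : a ∉ U) (hb' : b ∉ U) : a * b ∈ U := by
  have h1 := card_mul_relIndex_of_le hU
  have h2 : U.relIndex V ≠ 1 := fun e => ha' (Subgroup.relIndex_eq_one.1 e ha)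
  have h3 : U.relIndex V ≠ 0 := Subgroup.index_ne_zero_of_finite
  have h4 : U.relIndex V ≤ 2 :=
    Nat.le_of_mul_le_mul_left (by rw [h1, mul_comm]; exact hc) (cardG_gt0 U)
  have h5 : (U.subgroupOf V).index = 2 := by change U.relIndex V = 2; omega
  exact (Subgroup.mul_mem_iff_of_index_two h5 (a := ⟨a, ha⟩) (b := ⟨b, hb⟩)).2 (iff_of_false ha' hb')

/-- The hypothesis on the normalizers of invariant subgroups. -/
def Hyp (A K S : Subgroup G) : Prop :=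
  ∀ X, X ≤ S → X ≠ ⊥ → S ≤ 𝐍 X → A ≤ 𝐍 X → K ⊓ 𝐍 X ≤ S

omit [Finite G] in
theorem eq_one_of_odd (hS : IsPGroup 2 S) (hx : x ∈ S) (ho : (orderOf x).Coprime 2) : x = 1 := by
  obtain ⟨k, hk⟩ := exists_pow_eq_one hS hx
  exact Subgroup.mem_bot.1 (mem_of_pow_mem ho (Subgroup.mem_bot.2 hk))

namespace Setup

variable (h : Setup K S E)
include h

omit [Finite G] in
theorem comm_central (ha : s ∈ S) (hb : t ∈ S) :
    ∀ u ∈ S, u * (s * t * s⁻¹ * t⁻¹) = s * t * s⁻¹ * t⁻¹ * u :=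
  mem_cent.1 (h.cl (Subgroup.commutator_mem_commutator ha hb))

omit [Finite G] in
theorem Om_le : Om S ≤ Om E := fun _ hv =>
  ⟨h.cent ⟨hv.1, mem_cent.2 fun e he => hv.2.1 e (h.le he)⟩, fun e he => hv.2.1 e (h.le he), hv.2.2⟩

omit [Finite G] in
/-- Commutators with an involution. -/
theorem comm_mem_Om (ht : t ∈ S) (h2 : t * t = 1) (hs : s ∈ S) : t * s * t⁻¹ * s⁻¹ ∈ Om S := by
  have h1 := h.comm_central ht hs
  refine ⟨mul_mem (mul_mem (mul_mem ht hs) (inv_mem ht)) (inv_mem hs), h1, ?_⟩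
  have h3 : t * (t * s * t⁻¹ * s⁻¹) * t⁻¹ = t * s * t⁻¹ * s⁻¹ := by rw [h1 t ht]; group
  calc t * s * t⁻¹ * s⁻¹ * (t * s * t⁻¹ * s⁻¹)
      = t * (t * s * t⁻¹ * s⁻¹) * t⁻¹ * (t * s * t⁻¹ * s⁻¹) := by rw [h3]
    _ = (t * t) * s * (t * t)⁻¹ * s⁻¹ := by group
    _ = 1 := by rw [h2]; group

theorem not_le_S : ¬ K ⊓ 𝐍 E ≤ S := fun hc => h.bad fun x hx => by
  obtain ⟨k, hk⟩ := exists_pow_eq_one (Sylow_pgroup h.syl) (hc hx)
  exact ⟨k, hk ▸ one_mem _⟩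

omit [Finite G] in
theorem ne_bot : S ≠ ⊥ := fun e => h.bad fun x _ => ⟨0, by
  rw [show E = ⊥ from le_bot_iff.1 (e ▸ h.le)]
  exact mem_cent.2 fun a ha => by rw [Subgroup.mem_bot.1 ha]; simp⟩

variable (hAS : A ≤ 𝐍 S) (H : Hyp A K S)
include hAS H

theorem mem_S_of_cent (hx : x ∈ K) (hc : ∀ v ∈ Om E, x * v = v * x) : x ∈ S := by
  have h1 : Om S ≠ ⊥ := by
    have := (Sylow_pgroup h.syl).isNilpotent
    have h2 := center_nil_eq1 (H := S) this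
    obtain ⟨X, hX, hX2⟩ := exists_prime_subgroup (H := centerOf S) Nat.prime_two
      (pgroup_dvd_card (isPGroupS inf_le_left (Sylow_pgroup h.syl)) fun e => h.ne_bot (h2.1 e))
    refine fun e => (cardG_gt1.1 (by rw [hX2]; norm_num) : X ≠ ⊥) (le_bot_iff.1 (e ▸ fun v hv => ?_))
    refine ⟨(hX hv).1, mem_cent.1 (hX hv).2, ?_⟩
    have h3 : (⟨v, hv⟩ : X) ^ Nat.card X = 1 := pow_card_eq_one'
    rw [hX2, sq] at h3
    exact congrArg Subtype.val h3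
  refine H (Om S) (fun _ hv => hv.1) h1 ((normG S).trans norm_Om) (hAS.trans norm_Om) ⟨hx, ?_⟩
  refine mem_normalizer_of_conj_mem fun v hv => ?_
  rw [hc v (h.Om_le hv), mul_inv_cancel_right]
  exact hv

theorem R_eq : E ⊔ (K ⊓ 𝐂 E) = E := sup_eq_left.2 fun _ hx =>
  h.cent ⟨h.mem_S_of_cent hAS H hx.1 fun v hv => (mem_cent.1 hx.2 v hv.1).symm, hx.2⟩

theorem exists_elem : ∃ B ∈ Elem 2 (pRank 2 S) S, ¬ B ≤ E := by
  by_contra hc
  push Not at hc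
  have h1 : ∀ (D : Subgroup G) (g : G), D ≤ S → (∀ B ∈ Elem 2 (pRank 2 S) S, B ≤ D) → g ∈ 𝐍 D →
      g ∈ 𝐍 (⨆ B ∈ Elem 2 (pRank 2 S) S, B) := fun D g hD hB hg => by
    apply mem_normalizer_of_conj_mem
    rw [← conj_smul_le_iff]
    refine Subgroup.map_le_iff_le_comap.2 (iSup₂_le fun B hB' => Subgroup.map_le_iff_le_comap.1 ?_)
    have h2 : g •ᶜ B ∈ Elem 2 (pRank 2 S) D := (pnElemJnorm hg).2 ⟨hB B hB', hB'.2⟩
    exact le_iSup₂_of_le (g •ᶜ B) ⟨h2.1.trans hD, h2.2⟩ le_rfl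
  obtain ⟨B, hB⟩ := p_rank_witness 2 S
  refine h.not_le_S fun x hx => H _ (iSup₂_le fun B hB => hB.1) (fun e => ?_)
    (fun g hg => h1 S g le_rfl (fun B hB => hB.1) (normG S hg))
    (fun g hg => h1 S g le_rfl (fun B hB => hB.1) (hAS hg)) ⟨hx.1, h1 E x h.le hc hx.2⟩
  have h2 : B = ⊥ := le_bot_iff.1 (e ▸ le_iSup₂_of_le B hB le_rfl)
  have h3 := hB.2.2
  rw [h2, Subgroup.card_bot] at h3
  have h4 := p_rank_gt0.2 (pgroup_dvd_card (Sylow_pgroup h.syl) h.ne_bot)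
  exact absurd h3.symm (Nat.one_lt_pow h4.ne' one_lt_two).ne'

/-- An involution outside `E` acting as a transvection on `Ω₁(Z(E))`. -/
theorem exists_inv : ∃ t ∈ S, t ∉ E ∧ t * t = 1 ∧ ∃ z ∈ Om S,
    ∀ v ∈ Om E, t * v * t⁻¹ * v⁻¹ = 1 ∨ t * v * t⁻¹ * v⁻¹ = z := by
  obtain ⟨B, hB, hBE⟩ := h.exists_elem hAS H
  obtain ⟨t, ht, htE⟩ := SetLike.not_le_iff_exists.1 hBE
  have hsq : ∀ b ∈ B, b * b = 1 := fun b hb => by rw [← sq]; exact hB.2.1.2 b hb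
  have hcomm : ∀ a ∈ B, ∀ b ∈ B, a * b = b * a := fun a ha b hb =>
    mem_cent.1 (abelian_le_cent hB.2.1.1 hb) a ha
  obtain ⟨x, hx, ho, hxC⟩ := h.exists_odd
  have h1 : E.relIndex B = 2 := by
    refine Subgroup.relIndex_eq_two_iff_exists_notMem_and.2 ⟨t, ht, htE, fun b hb => ?_⟩
    by_contra hc
    push Not at hc
    have a1 := (h.inverts (hB.1 ht) htE (hsq t ht)).1 x hx ho
    have a2 := (h.inverts (hB.1 hb) hc.2 (hsq b hb)).1 x hx ho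
    refine hxC (h.cent_of_mem (h.mem_of_comm (hB.1 (mul_mem hb ht)) hc.1 hx ho ?_) ho)
    rw [h.R_eq hAS H] at a1 a2 ⊢
    have hbN : b ∈ 𝐍 E := (h.S_le (hB.1 hb)).2
    have : x * (b * t) * x⁻¹ * (b * t)⁻¹ =
        x * (b * x * b⁻¹ * x) * x⁻¹ * (b * (t * x * t⁻¹ * x)⁻¹ * b⁻¹) := by group
    rw [this]
    exact E.mul_mem ((memJ_norm hx.2).2 a2) ((memJ_norm hbN).2 (E.inv_mem a1))
  have h2 : Nat.card (Om E) ≤ 2 * Nat.card (Om E ⊓ B : Subgroup G) := by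
    have a1 : IsElementaryAbelian 2 (B ⊓ E : Subgroup G) := abelemS inf_le_left hB.2.1
    have a2 : B ⊓ E ≤ 𝐂 (Om E) := fun b hb => mem_cent.2 fun v hv => (hv.2.1 b hb.2).symm
    have a3 := card_abelem_le_p_rank (abelemY abelem_Om a1 a2)
      (sup_le (Om_le_self.trans h.le) (inf_le_left.trans hB.1))
    have a4 := card_sup_mul_card_inf_of_le_normalizer (a2.trans (cent_sub _))
    have a5 := card_mul_relIndex_of_le (inf_le_left : B ⊓ E ≤ B)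
    rw [inf_comm B E, Subgroup.inf_relIndex_right, h1, inf_comm E B, hB.2.2] at a5
    have a6 : Om E ⊓ (B ⊓ E) = Om E ⊓ B := by
      rw [inf_comm B E, ← inf_assoc, inf_eq_left.2 Om_le_self]
    rw [a6] at a4
    refine Nat.le_of_mul_le_mul_right ?_ (cardG_gt0 (B ⊓ E))
    rw [← a4, mul_right_comm, mul_comm 2, a5]
    exact Nat.mul_le_mul_right _ a3
  refine ⟨t, hB.1 ht, htE, hsq t ht, ?_⟩
  by_cases hc : ∀ v ∈ Om E, v ∈ B
  · exact ⟨1, one_mem _, fun v hv => Or.inl (by rw [hcomm t ht v (hc v hv)]; group)⟩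
  push Not at hc
  obtain ⟨u, hu, huB⟩ := hc
  refine ⟨_, h.comm_mem_Om (hB.1 ht) (hsq t ht) (h.le hu.1), fun v hv => ?_⟩
  by_cases hvB : v ∈ B
  · exact Or.inl (by rw [hcomm t ht v hvB]; group)
  have a1 := mul_mem_of_card_le inf_le_left h2 hu hv (fun e => huB e.2) fun e => hvB e.2
  refine Or.inr ?_
  have a2 : v = u * (u * v) := by rw [← mul_assoc, hu.2.2, one_mul]
  have a3 := hcomm t ht _ a1.2
  rw [a2]
  generalize u * v = w at a3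
  calc t * (u * w) * t⁻¹ * (u * w)⁻¹ = t * u * t⁻¹ * (t * w) * t⁻¹ * (u * w)⁻¹ := by group
    _ = _ := by rw [a3]; group

theorem odd_comm {x y : G} (hx : x ∈ K ⊓ 𝐍 E) (ho : (orderOf x).Coprime 2) (hy : y ∈ K ⊓ 𝐍 E)
    (ho' : (orderOf y).Coprime 2) : x * y * x⁻¹ * y⁻¹ ∈ E := by
  obtain ⟨t, ht, htE, h2, -⟩ := h.exists_inv hAS H
  exact h.R_eq hAS H ▸ (h.inverts ht htE h2).2 x hx ho y hy ho'

/-- An element of odd order acting trivially on `E / W` for a four-group `W`. -/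
theorem exists_y : ∃ y ∈ K ⊓ 𝐍 E, (orderOf y).Coprime 2 ∧ ∃ z ∈ Om S, ∃ w ∈ Om E,
    y * z * y⁻¹ = w ∧ w ≠ z ∧ y * w * y⁻¹ = z * w ∧ ∀ e ∈ E, y * e * y⁻¹ * e⁻¹ = 1 ∨
      y * e * y⁻¹ * e⁻¹ = z ∨ y * e * y⁻¹ * e⁻¹ = w ∨ y * e * y⁻¹ * e⁻¹ = z * w := by
  obtain ⟨t, ht, htE, h2, z, hz, htz⟩ := h.exists_inv hAS H
  obtain ⟨x, hx, ho, hxC⟩ := h.exists_odd
  have hz1 := h.Om_le hz
  have hz2 := conj_mem_Om hx.2 hz1
  set z' := x * z * x⁻¹ with hz'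
  set W := Four z z' hz1.2.2 hz2.2.2 (hz1.2.1 _ hz2.1) with hW
  have hWV : W ≤ Om E := Four_le hz1 hz2
  have a1 : t ∈ St E (Om E) :=
    ⟨norm_Om (h.S_le ht).2, fun e he => h.Om_le (h.comm_mem_Om ht h2 (h.le he))⟩
  have a2 : t ∈ St (Om E) W := mem_St_of_le hWV fun v hv =>
    (htz v hv).elim Or.inl fun e => Or.inr (Or.inl e)
  have a3 : x * t * x⁻¹ ∈ St (Om E) W := mem_St_of_le hWV fun v hv => by
    have : x * t * x⁻¹ * v * (x * t * x⁻¹)⁻¹ * v⁻¹ =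
        x * (t * (x⁻¹ * v * x) * t⁻¹ * (x⁻¹ * v * x)⁻¹) * x⁻¹ := by group
    rw [this]
    rcases htz _ ((memJ_norm' (norm_Om hx.2)).2 hv) with e | e <;> rw [e]
    · exact Or.inl (by group)
    · exact Or.inr (Or.inr (Or.inl rfl))
  obtain ⟨k, hk⟩ := exists_coprime_pow Nat.prime_two (t * (x * t * x⁻¹))
  have hyL : (t * (x * t * x⁻¹)) ^ 2 ^ k ∈ K ⊓ 𝐍 E := Subgroup.pow_mem _
    (mul_mem (h.S_le ht) (mul_mem (mul_mem hx (h.S_le ht)) (inv_mem hx))) _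
  have a4 := Subgroup.pow_mem _ (mul_mem a1 (conj_mem_St hx.2 (norm_Om hx.2) a1)) (2 ^ k)
  have a5 := Subgroup.pow_mem _ (mul_mem a2 a3) (2 ^ k)
  have a6 : (t * (x * t * x⁻¹)) ^ 2 ^ k ≠ 1 := fun e => by
    have b1 := (h.inverts ht htE h2).1 x hx ho
    rw [h.R_eq hAS H] at b1
    have b2 : t * (x * t * x⁻¹) = t * x * t⁻¹ * x * (x ^ 2)⁻¹ := by
      rw [inv_eq_of_mul_eq_one_right h2]; group
    obtain ⟨u, hu, b3⟩ := exists_mul_pow_eq b1 (Subgroup.inv_mem _ (Subgroup.pow_mem _ hx.2 2)) (2 ^ k)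
    rw [← b2, e, inv_pow, eq_mul_inv_iff_mul_eq, one_mul, ← pow_mul, ← pow_succ'] at b3
    rw [eq_one_of_odd (Sylow_pgroup h.syl) (h.le (mem_of_pow_mem ho (b3 ▸ hu))) ho] at hxC
    exact hxC (one_mem _)
  generalize (t * (x * t * x⁻¹)) ^ 2 ^ k = y at hk hyL a4 a5 a6
  have a7 : y ∈ St E W := mem_of_pow_mem hk (sq_mem_St a4 a5 fun v hv => hv.2.2)
  have a8 : y * z * y⁻¹ ≠ z := fun e => by
    have b1 : y * z' * y⁻¹ = z' := by
      refine fix_of_sq hk ?_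
      rcases (memJ_norm a7.1).2 (Or.inr (Or.inr (Or.inl rfl)) : z' ∈ W) with b | b | b | b
      · rw [conj_eq_one_iff.1 b]; group
      · rw [b, e]; exact (MulAut.conj y).injective (e.trans b.symm)
      · rw [b, b]
      · rw [b, ← conj_mul, e, b, ← mul_assoc, hz.2.2, one_mul]
    have b2 : y ∈ St W ⊥ := mem_St_bot.2 fun v hv => mul_inv_eq_iff_eq_mul.1 (by
      rcases hv with b | b | b | b <;> rw [b]
      · group
      · exact e
      · exact b1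
      · rw [← conj_mul, e, b1])
    have b3 : y ∈ St (Om E) ⊥ := mem_of_pow_mem hk (sq_mem_St a5 b2 fun v hv => (hWV hv).2.2)
    exact a6 (eq_one_of_odd (Sylow_pgroup h.syl)
      (h.mem_S_of_cent hAS H hyL.1 (mem_St_bot.1 b3)) hk)
  have a9 : y * z * y⁻¹ ≠ 1 := fun e => a8 (by rw [conj_eq_one_iff.1 e]; group)
  have a10 : y * z * y⁻¹ ∈ W := (memJ_norm a7.1).2 (Or.inr (Or.inl rfl))
  have a11 : ∀ v ∈ W, v = 1 ∨ v = z ∨ v = y * z * y⁻¹ ∨ v = z * (y * z * y⁻¹) := by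
    rcases a10 with b | b | b | b
    · exact absurd b a9
    · exact absurd b a8
    · rw [b]; exact fun v hv => hv
    · rw [b, ← mul_assoc z z, hz.2.2, one_mul]
      intro v hv
      rw [or_comm (a := v = z * z')]
      exact hv
  refine ⟨y, hyL, hk, z, hz, _, hWV a10, rfl, a8, ?_, fun e he => a11 _ (a7.2 e he)⟩
  rcases a11 _ ((memJ_norm a7.1).2 a10) with b | b | b | b
  · exact absurd (conj_eq_one_iff.1 b) a9
  · exact absurd (fix_of_sq hk b) a8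
  · exact absurd ((MulAut.conj y).injective b) a8
  · exact b

section
variable {w : G} (hy : y ∈ K ⊓ 𝐍 E) (ho : (orderOf y).Coprime 2) (hz : z ∈ Om S) (hw : w ∈ Om E)
  (e1 : y * z * y⁻¹ = w) (e2 : w ≠ z) (e3 : y * w * y⁻¹ = z * w)
  (e4 : ∀ e ∈ E, y * e * y⁻¹ * e⁻¹ = 1 ∨
      y * e * y⁻¹ * e⁻¹ = z ∨ y * e * y⁻¹ * e⁻¹ = w ∨ y * e * y⁻¹ * e⁻¹ = z * w)
include hy ho hz hw e1 e2 e3 e4

theorem conj_w (hs : s ∈ S) : s * w * s⁻¹ = w ∨ s * w * s⁻¹ = z * w := by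
  have hsz : s * z * s⁻¹ = z := by rw [hz.2.1 s hs, mul_inv_cancel_right]
  have h1 : s * y * s⁻¹ ∈ K ⊓ 𝐍 E := mul_mem (mul_mem (h.S_le hs) hy) (inv_mem (h.S_le hs))
  have h2 : orderOf (s * y * s⁻¹) = orderOf y := (MulAut.conj s).orderOf_eq y
  have h3 := h.odd_comm hAS H h1 (h2 ▸ ho) hy ho
  have h4 : s * w * s⁻¹ = s * y * s⁻¹ * z * (s * y * s⁻¹)⁻¹ := by
    conv_rhs => rw [← hsz]
    rw [← e1]; group
  have h5 := conj_mem_Om h1.2 hw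
  generalize s * y * s⁻¹ = y₁ at h1 h3 h4 h5
  have h6 := (conj_mem_Om hy.2 h5).2.1 _ h3
  have h7 : s * w * s⁻¹ = y * (y₁ * w * y₁⁻¹) * y⁻¹ * (y₁ * w * y₁⁻¹)⁻¹ := by
    rw [h4, ← mul_inv_eq_iff_eq_mul.2 e3]
    calc y₁ * (y * w * y⁻¹ * w⁻¹) * y₁⁻¹
        = y₁ * y * y₁⁻¹ * y⁻¹ * (y * (y₁ * w * y₁⁻¹) * y⁻¹) * (y₁ * y * y₁⁻¹ * y⁻¹)⁻¹ *
          (y₁ * w * y₁⁻¹)⁻¹ := by group
      _ = _ := by rw [h6]; group
  rcases e4 _ h5.1 with b | b | b | b <;> rw [← h7] at b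
  · refine absurd ?_ e2
    have b1 := conj_eq_one_iff.1 b
    rw [b1, conj_eq_one_iff.1 (e1.trans b1)]
  · exact absurd ((MulAut.conj s).injective (b.trans hsz.symm)) e2
  · exact Or.inl b
  · exact Or.inr b

theorem mem_E_of_comm (hs : s ∈ S) (hc : s * w * s⁻¹ = w) : s ∈ E := by
  by_contra hsE
  have hsz : s * z * s⁻¹ = z := by rw [hz.2.1 s hs, mul_inv_cancel_right]
  have hz1 := h.Om_le hz
  set W := Four z w hz1.2.2 hw.2.2 (hz1.2.1 _ hw.1) with hW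
  have hWV : W ≤ Om E := Four_le hz1 hw
  have a1 : y ∈ St (Om E) W := mem_St_of_le hWV fun v hv => e4 v hv.1
  have a2 : ∀ v ∈ W, s * v * s⁻¹ = v := fun v hv => by
    rcases hv with b | b | b | b <;> rw [b]
    · group
    · exact hsz
    · exact hc
    · rw [← conj_mul, hsz, hc]
  have a3 : s ∈ 𝐍 W := mem_normalizer_of_conj_mem fun v hv => (a2 v hv).symm ▸ hv
  have a4 : y * (s * y⁻¹ * s⁻¹) ∈ St (Om E) W :=
    mul_mem a1 (conj_mem_St (norm_Om (h.S_le hs).2) a3 (inv_mem a1))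
  have a5 : y * (s * y⁻¹ * s⁻¹) ∈ St W ⊥ := mem_St_bot.2 fun v hv => mul_inv_eq_iff_eq_mul.1 (by
    have b1 := a2 v hv
    have b2 := a2 _ ((memJ_norm' a1.1).2 hv)
    calc y * (s * y⁻¹ * s⁻¹) * v * (y * (s * y⁻¹ * s⁻¹))⁻¹
        = y * (s * y⁻¹ * s⁻¹) * (s * v * s⁻¹) * (y * (s * y⁻¹ * s⁻¹))⁻¹ := by rw [b1]
      _ = y * (s * (y⁻¹ * v * y) * s⁻¹) * y⁻¹ := by group
      _ = v := by rw [b2]; group)
  have h1 : s * y⁻¹ * s⁻¹ ∈ K ⊓ 𝐍 E :=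
    mul_mem (mul_mem (h.S_le hs) (inv_mem hy)) (inv_mem (h.S_le hs))
  have h2 : orderOf (s * y⁻¹ * s⁻¹) = orderOf y :=
    ((MulAut.conj s).orderOf_eq y⁻¹).trans (orderOf_inv y)
  have h3 := h.odd_comm hAS H hy ho h1 (h2 ▸ ho)
  have a6 := h.mem_S_of_cent hAS H (Subgroup.pow_mem _ (mul_mem hy h1).1 _)
    (mem_St_bot.1 (sq_mem_St a4 a5 fun v hv => (hWV hv).2.2))
  obtain ⟨k, hk⟩ := exists_pow_eq_one (Sylow_pgroup h.syl) a6
  rw [← pow_mul, ← pow_add] at hk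
  have a7 : (y * (s * y⁻¹ * s⁻¹)) ^ orderOf y ^ 1 ∈ E := by
    have hE := (normalSG (h.le.trans (pHall_sub h.syl))).subgroupOf
    have b1 : Commute (qmk (K ⊓ 𝐍 E) E ⟨y, hy⟩) (qmk (K ⊓ 𝐍 E) E ⟨_, h1⟩) := by
      rw [← commutatorElement_eq_one_iff_commute, ← map_commutatorElement, qmk_eq_one]
      exact h3
    have b2 : qmk (K ⊓ 𝐍 E) E ((⟨y, hy⟩ * ⟨_, h1⟩) ^ orderOf y ^ 1) = 1 := by
      have c1 : (⟨y, hy⟩ : (K ⊓ 𝐍 E : Subgroup G)) ^ orderOf y = 1 :=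
        Subtype.ext (pow_orderOf_eq_one y)
      have c2 : (⟨_, h1⟩ : (K ⊓ 𝐍 E : Subgroup G)) ^ orderOf y = 1 :=
        Subtype.ext (h2 ▸ pow_orderOf_eq_one _)
      rw [pow_one, map_pow, map_mul, b1.mul_pow, ← map_pow, ← map_pow, c1, c2, map_one, mul_one]
    exact qmk_eq_one.1 b2
  have a8 := mem_of_pow_mem
    ((ho.symm.pow_left _).coprime_dvd_left (orderOf_dvd_of_pow_eq_one hk)) a7
  have a9 := h.mem_of_comm hs hsE hy ho (Subgroup.mem_sup_left (by simpa only [mul_assoc] using a8))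
  rw [h.R_eq hAS H] at a9
  rw [eq_one_of_odd (Sylow_pgroup h.syl) (h.le a9) ho, one_mul, inv_one, mul_one] at e1
  exact e2 e1.symm

end

theorem false_of_odd (hA : (Nat.card A).Coprime 2) : False := by
  obtain ⟨y, hy, ho, z, hz, w, hw, e1, e2, e3, e4⟩ := h.exists_y hAS H
  have h1 := fun s => h.conj_w (s := s) hAS H hy ho hz hw e1 e2 e3 e4
  have h2 := fun s => h.mem_E_of_comm (s := s) hAS H hy ho hz hw e1 e2 e3 e4
  have hz1 := h.Om_le hz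
  have hwS := h.le hw.1
  have h3 : ∀ a ∈ A, a * w * a⁻¹ ∈ S := fun a ha => (memJ_norm (hAS ha)).2 hwS
  have h4 : ∀ a ∈ A, ∀ s ∈ S, s * (a * w * a⁻¹) * s⁻¹ = a * w * a⁻¹ ∨
      s * (a * w * a⁻¹) * s⁻¹ = a * z * a⁻¹ * (a * w * a⁻¹) := fun a ha s hs => by
    have : s * (a * w * a⁻¹) * s⁻¹ = a * (a⁻¹ * s * a * w * (a⁻¹ * s * a)⁻¹) * a⁻¹ := by group
    rw [this]
    rcases h1 _ ((memJ_norm' (hAS ha)).2 hs) with b | b <;> rw [b]
    · exact Or.inl rfl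
    · exact Or.inr (conj_mul).symm
  by_cases hc : ∀ a ∈ A, a * w * a⁻¹ ∈ E
  · set X := Subgroup.closure {v | ∃ a ∈ A, v = a * w * a⁻¹ ∨ v = a * z * a⁻¹} with hX
    have a1 : ∀ a ∈ A, a * w * a⁻¹ ∈ X := fun a ha => Subgroup.subset_closure ⟨a, ha, Or.inl rfl⟩
    have a2 : ∀ a ∈ A, a * z * a⁻¹ ∈ X := fun a ha => Subgroup.subset_closure ⟨a, ha, Or.inr rfl⟩
    have a3 : w ∈ X := by simpa using a1 1 A.one_mem
    have a4 : z ∈ X := by simpa using a2 1 A.one_mem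
    have a5 : X ≤ E := (Subgroup.closure_le _).2 (by
      rintro _ ⟨a, ha, rfl | rfl⟩
      exacts [hc a ha, (h.Om_le (conj_mem_Om (hAS ha) hz)).1])
    have a6 : ∀ g : G, (∀ a ∈ A, g * (a * w * a⁻¹) * g⁻¹ ∈ X ∧ g * (a * z * a⁻¹) * g⁻¹ ∈ X) →
        g ∈ 𝐍 X := fun g hg => by
      apply mem_normalizer_of_conj_mem
      rw [← conj_smul_le_iff]
      refine Subgroup.map_le_iff_le_comap.2 ((Subgroup.closure_le _).2 ?_)
      rintro _ ⟨a, ha, rfl | rfl⟩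
      exacts [(hg a ha).1, (hg a ha).2]
    have a7 : y ∈ S := H X (a5.trans h.le) (fun e => e2 (by
        rw [e, Subgroup.mem_bot] at a3 a4
        rw [a3, a4]))
      (fun s hs => a6 s fun a ha => ⟨by
        rcases h4 a ha s hs with b | b <;> rw [b]
        exacts [a1 a ha, mul_mem (a2 a ha) (a1 a ha)], by
        rw [(conj_mem_Om (hAS ha) hz).2.1 s hs, mul_inv_cancel_right]
        exact a2 a ha⟩)
      (fun b hb => a6 b fun a ha => ⟨by simpa [mul_assoc] using a1 _ (mul_mem hb ha),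
        by simpa [mul_assoc] using a2 _ (mul_mem hb ha)⟩)
      ⟨hy.1, (mem_St_of_le a5 fun v hv => by
        rcases e4 v hv with b | b | b | b <;> rw [b]
        exacts [one_mem _, a4, a3, mul_mem a4 a3] : y ∈ St E X).1⟩
    rw [eq_one_of_odd (Sylow_pgroup h.syl) a7 ho, one_mul, inv_one, mul_one] at e1
    exact e2 e1.symm
  push Not at hc
  obtain ⟨c, hc, hcE⟩ := hc
  have hwi : w⁻¹ = w := inv_eq_of_mul_eq_one_right hw.2.2
  have a1 : c * w * c⁻¹ * w * (c * w * c⁻¹)⁻¹ = z * w :=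
    (h1 _ (h3 c hc)).resolve_left fun e => hcE (h2 _ (h3 c hc) e)
  have a2 : c * z * c⁻¹ = z := by
    have b1 : w * (c * w * c⁻¹) * w⁻¹ = z * (c * w * c⁻¹) := by
      have b2 := hz.2.1 _ (h3 c hc)
      have b3 : (c * w * c⁻¹)⁻¹ = c * w * c⁻¹ := by rw [conj_inv, hwi]
      rw [b3] at a1
      generalize c * w * c⁻¹ = u at a1 b2 b3
      calc w * u * w⁻¹ = u⁻¹ * (u * w * u) * w⁻¹ := by group
        _ = _ := by rw [a1, b3, ← b2]; group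
    rcases h4 c hc w hwS with b | b <;> rw [b1] at b
    · rw [mul_eq_right.1 b]; group
    · exact (mul_right_cancel b).symm
  obtain ⟨a, ha, haz, e⟩ : ∃ a ∈ A, a * z * a⁻¹ = z ∧ a * a = c := by
    have b1 : (orderOf c).Coprime 2 := hA.coprime_dvd_left (A.orderOf_dvd_natCard hc)
    obtain ⟨n, hn⟩ := Nat.coprime_two_right.1 b1
    refine ⟨c ^ (n + 1), Subgroup.pow_mem _ hc _, ?_, ?_⟩
    · rw [((show Commute c z from mul_inv_eq_iff_eq_mul.1 a2).pow_left _).eq, mul_inv_cancel_right]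
    · rw [← pow_add, show n + 1 + (n + 1) = 2 * n + 1 + 1 by ring, pow_succ, ← hn,
        pow_orderOf_eq_one, one_mul]
  have b1 := h3 a ha
  have b2 := h3 _ (inv_mem ha)
  rw [inv_inv] at b2
  have a3 : a * w * a⁻¹ * (a⁻¹ * w * a) * (a * w * a⁻¹ * (a⁻¹ * w * a)) = z := by
    have b3 : a⁻¹ * z * a = z := by
      conv_lhs => rw [← haz]
      group
    calc _ = a⁻¹ * (a * a * w * (a * a)⁻¹ * w * (a * a * w⁻¹⁻¹ * (a * a)⁻¹) * w) * a := by group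
      _ = a⁻¹ * (c * w * c⁻¹ * w * (c * w * c⁻¹)⁻¹ * w) * a := by rw [e, hwi]; group
      _ = z := by rw [a1, mul_assoc z, hw.2.2, mul_one, b3]
  have a4 : a * w * a⁻¹ * (a⁻¹ * w * a) ∈ E := by
    have b4 : a * w * a⁻¹ * w * (a * w * a⁻¹)⁻¹ = w ↔ a⁻¹ * w * a * w * (a⁻¹ * w * a)⁻¹ = w := by
      rw [mul_inv_eq_iff_eq_mul, mul_inv_eq_iff_eq_mul, ← (MulAut.conj a⁻¹).injective.eq_iff,
        eq_comm]
      simp [mul_assoc]
    refine h2 _ (mul_mem b1 b2) ?_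
    rw [mul_inv_rev, ← mul_assoc, mul_assoc _ _ w, mul_assoc _ (_ * w)]
    rcases h1 _ b2 with b | b
    · rw [b, b4.2 b]
    · have b5 : z * w ≠ w := fun e => e2 (by rw [← e1, mul_eq_right.1 e]; group)
      rw [b, ← conj_mul, hz.2.1 _ b1, mul_inv_cancel_right,
        (h1 _ b1).resolve_left fun e => b5 (b.symm.trans (b4.1 e)), ← mul_assoc, hz.2.2, one_mul]
  generalize a * w * a⁻¹ * (a⁻¹ * w * a) = u at a3 a4
  have a5 : y * u * y⁻¹ * u⁻¹ ∈ Om E := by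
    rcases e4 u a4 with b | b | b | b <;> rw [b]
    exacts [one_mem _, hz1, hw, mul_mem hz1 hw]
  apply e2
  have a6 := a5.2.1 u a4
  have a7 := a5.2.2
  rw [← e1, ← a3, ← conj_mul, ← inv_mul_cancel_right (y * u * y⁻¹) u]
  generalize y * u * y⁻¹ * u⁻¹ = v at a6 a7
  rw [mul_assoc, ← mul_assoc u, a6, ← mul_assoc, ← mul_assoc, a7, one_mul]

end Setup

/-- The normal complement theorem for class two with operators of odd order. -/
theorem hasNormalPComplement_two (hS : IsSylowOf 2 S K) (hc : ⁅S, S⁆ ≤ 𝐂 S)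
    (hA : (Nat.card A).Coprime 2) (hAS : A ≤ 𝐍 S) (H : Hyp A K S) : HasNormalPComplement 2 K := by
  by_contra hn
  obtain ⟨E, h1, h2, h3, h4, -⟩ := exists_max_not_good hS hn
  exact Setup.false_of_odd ⟨hS, hc, h1, h2, h3, h4⟩ hAS H hA

end Cfsg.Lib.Cor.C2
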