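import Cfsg.Agent.Cor.ClassTwoB
import Cfsg.Agent.Cor.OddSol
import Cfsg.Agent.Inst.S0108
import Cfsg.Agent.Solv.ThompsonWrap
import Cfsg.Agent.Solv.NilpotentHall
import Cfsg.Agent.Solv.CoprimeSylow

/-!
A group with operators of coprime order having a nilpotent maximal invariant subgroup whose Sylow
`2`-subgroup has class at most two is solvable.
-/

set_option autoImplicit false

open Pointwise Cfsg Cfsg.Agent Cfsg.Lib.Solv Cfsg.Lib.FT

namespace Cfsg.Lib.Cor.C2

universe u

theorem solvable_of_max (n : ℕ) : ∀ (G : Type u) [Group G] [Finite G] (A K M S : Subgroup G),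
    Nat.card K = n → A ≤ 𝐍 K → (Nat.card A).Coprime (Nat.card K) → M < K → A ≤ 𝐍 M →
    (∀ H, M ≤ H → H < K → A ≤ 𝐍 H → H = M) → Group.IsNilpotent M → IsSylowOf 2 S M →
    ⁅S, S⁆ ≤ 𝐂 S → Group.IsSolvable K := by
  induction n using Nat.strong_induction_on with
  | _ n ih =>
  intro G _ _ A K M S hn hAK hcop hMK hAM hmax hnil hS hcl
  by_cases hN : ∃ N, N ⊲ K ∧ A ≤ 𝐍 N ∧ N ≠ ⊥ ∧ N ≤ M
  · obtain ⟨N, hNK, hAN, h1, h2⟩ := hN
    have hNL : N ⊲ K ⊔ A := ⟨hNK.le.trans le_sup_left, sup_le hNK.norm hAN⟩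
    have := hNL.subgroupOf
    have hker : pre (qmk (K ⊔ A) N) ⊥ = N := ker_qmk hNL.le
    have hML : M ≤ K ⊔ A := hMK.le.trans le_sup_left
    refine solvable_of_img (f := qmk (K ⊔ A) N) le_sup_left ?_ (ih _ ?_ _ (img _ A) _ (img _ M)
      (img _ S) rfl (img_norms _ hAK) (coprime_img _ hcop)
      (img_lt_img le_sup_left (hker.le.trans h2) hMK) (img_norms _ hAM) (fun X h3 hX hAX => ?_)
      (nilpotent_img _ hnil) (pHall_img _ hML hS) ?_)
    · rw [hker]
      exact solvableS (inf_le_right.trans h2) (nilpotent_sol hnil)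
    · rw [← hn, ← card_img_mul_of_ker_le (f := qmk (K ⊔ A) N) le_sup_left (hker.le.trans hNK.le),
        hker]
      exact lt_mul_of_one_lt_right (cardG_gt0 _) (cardG_gt1.2 h1)
    · have h4 := pre_lt_pre (img_le_self _ K) hX
      rw [pre_img_qmk hNK.le le_sup_left] at h4
      rw [← hmax _ ((img_le_iff hML).1 h3) h4 (norms_pre le_sup_right hAX), img_pre_qmk]
    · rw [← img_commutator ((pHall_sub hS).trans hML) ((pHall_sub hS).trans hML)]
      exact img_cents _ hcl
  push Not at hN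
  have key : ∀ X, X ≤ M → X ≠ ⊥ → M ≤ 𝐍 X → A ≤ 𝐍 X → K ⊓ 𝐍 X = M := fun X h1 h2 h3 h4 =>
    hmax _ (le_inf hMK.le h3) (lt_of_le_of_ne inf_le_left fun e =>
      hN X ⟨h1.trans hMK.le, inf_eq_left.1 e⟩ h4 h2 h1) (normsI hAK (norms_norm h4))
  by_contra hsol
  have he := even_card_of_not_isSolvable hsol
  have hA2 : (Nat.card A).Coprime 2 := hcop.coprime_dvd_right he
  have hAs : Group.IsSolvable A := by
    by_contra hc
    exact (Nat.Prime.coprime_iff_not_dvd Nat.prime_two).1 hA2.symm (even_card_of_not_isSolvable hc)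
  have syl : ∀ (p : ℕ) [Fact p.Prime] (P : Subgroup G), IsSylowOf p P M → P ≠ ⊥ → IsSylowOf p P K :=
    fun p _ P hP h1 => (Sylow_subnorm ((pHall_sub hP).trans hMK.le)).1 (by
      rwa [key P (pHall_sub hP) h1 (nilpotent_Hall_normal hnil hP).norm
        (hAM.trans (nilpotent_Hall_norm hnil hP))])
  by_cases h2 : IsPiSubgroup {2} M
  · have hSM := pHall_eq_self hS h2
    subst hSM
    by_cases h0 : S = ⊥
    · obtain ⟨P, h1, h3, h4, h5⟩ := Coprime.exists_invariant_sylow' hAK hcop (Or.inl hAs) 2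
      rcases h1.eq_or_lt with e | e
      · exact hsol (e ▸ pgroup_sol h3)
      · rw [hmax P (h0 ▸ bot_le) e h5, h0, Subgroup.relIndex_bot_left] at h4
        exact h4 he
    · exact hsol (isSolvable_of_hasNormalPComplement_two (hasNormalPComplement_two
        (syl 2 S hS h0) hcl hA2 hAM fun X h1 h3 h4 h5 => (key X h1 h3 h4 h5).le))
  obtain ⟨p, hp, hpM, hp2⟩ : ∃ p, p.Prime ∧ p ∣ Nat.card M ∧ p ≠ 2 := by
    by_contra hc
    push Not at hc
    exact h2 fun p hp hd => hc p hp hd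
  have := Fact.mk hp
  obtain ⟨P, hP⟩ := Sylow_exists p M
  have hP0 := Sylow_ne_bot hP hpM
  have hPK := syl p P hP hP0
  have hAP := hAM.trans (nilpotent_Hall_norm hnil hP)
  have hc : HasNormalPComplement p K := by
    obtain ⟨Q, rfl⟩ := exists_sylow_of hPK
    refine hasNormalPComplement_of_forall_invariant hp2 Q fun W hW hW1 hinv => ?_
    have h1 := normalizer_le_normalizer_of_invariant hinv
    rw [key W (hW.trans (pHall_sub hP)) hW1 ((nilpotent_Hall_normal hnil hP).norm.trans h1)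
      (hAP.trans h1)]
    exact hasNormalPComplement_of_isNilpotent p
  have h3 := normal_p_compl_iff.1 hc
  have hRK := pcore_normal ({p}ᶜ : Set ℕ) K
  have hAR := norms_pcore ({p}ᶜ : Set ℕ) hAK
  set R := piCoreOf ({p}ᶜ : Set ℕ) K with hR
  have hPR : P ≤ 𝐍 R := (pHall_sub hPK).trans hRK.norm
  have h4 : R ⊔ P = K := by rw [sup_comm]; exact Hall_sup_eq hPK h3
  have h5 : P ⊓ R = ⊥ := pgroup_TI (pHall_pgroup hPK) (pHall_pgroup h3)
  have h6 : R < K := lt_of_le_of_ne hRK.le fun e =>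
    hP0 (by rw [← h5, e, inf_eq_left.2 (pHall_sub hPK)])
  have h7 : R ⊓ M ⊔ P = M := by
    rw [← sup_inf_assoc_of_le_normalizer' hPR (pHall_sub hP), h4, inf_eq_right.2 hMK.le]
  have h8 : Group.IsSolvable R := by
    refine ih _ (hn ▸ proper_card h6) G (P ⊔ A) R (R ⊓ M) S rfl (sup_le hPR hAR) ?_
      (lt_of_le_of_ne inf_le_left fun e => hMK.not_ge ?_)
      (normsI (sup_le hPR hAR) (sup_le ((pHall_sub hP).trans (normG M)) hAM))
      (fun H h9 h10 h11 => le_antisymm (le_inf h10.le ?_) h9) (nilpotentS inf_le_right hnil)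
      (pHall_subl (le_inf ?_ (pHall_sub hS)) inf_le_right hS) hcl
    · refine Nat.Coprime.coprime_dvd_left ⟨_, (card_sup_mul_card_inf_of_le_normalizer hAP).symm⟩ ?_
      exact Nat.Coprime.mul_left (pnat_coprime (pHall_pgroup hPK) (pHall_pgroup h3))
        (hcop.coprime_dvd_right (Subgroup.card_dvd_of_le hRK.le))
    · rw [← h4]
      exact sup_le (inf_eq_left.1 e) (pHall_sub hP)
    · have h12 : P ≤ 𝐍 H := le_sup_left.trans h11
      refine le_sup_left.trans (hmax (H ⊔ P) (h7.ge.trans (sup_le_sup_right h9 _))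
        (lt_of_le_of_ne (sup_le (h10.le.trans hRK.le) (pHall_sub hPK)) fun e => h10.not_ge ?_)
        (normsY (le_sup_right.trans h11) hAP)).le
      have := sup_inf_assoc_of_le_normalizer h12 h10.le
      rw [e, h5, sup_bot_eq, inf_eq_right.2 hRK.le] at this
      exact this.le
    · exact (sub_normal_Hall h3 hRK.norm ((pHall_sub hS).trans hMK.le)).2
        (pi_singleton_pgroup (pHall_pgroup hS) hp2.symm)
  have := hRK.subgroupOf
  refine hsol (solvable_of_img (f := qmk K R) le_rfl ?_ ?_)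
  · rw [ker_qmk hRK.le]
    exact solvableS inf_le_right h8
  · have h9 := img_sup_of_le_ker (f := qmk K R) (pHall_sub hPK) (ker_qmk hRK.le).ge
    rw [h4] at h9
    exact h9 ▸ pgroup_sol (isPGroup_img _ (Sylow_pgroup hPK))

end Cfsg.Lib.Cor.C2
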